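import Cfsg.Agent.H514.OrdFusion
import Cfsg.Agent.LFourR.FieldPart
import Cfsg.Agent.ClassicalGeometry.PSL2Trace

/-!
# Conjugacy in `PSL(2, q)` of elements with lifts of equal trace
-/

set_option autoImplicit false
set_option linter.style.haveILetI false

namespace Cfsg.Agent.H514.OC.Psl2

open Matrix Cfsg.Agent.ClassicalGeometry

variable {F : Type*} [Field F]

/-- the group -/
abbrev PSL2 (F : Type*) [Field F] := Matrix.ProjectiveSpecialLinearGroup (Fin 2) F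

/-- `x` has a non-scalar lift of trace `τ`. -/
def Lift (τ : F) (x : PSL2 F) : Prop :=
  ∃ A : Matrix.SpecialLinearGroup (Fin 2) F, (QuotientGroup.mk A : PSL2 F) = x ∧
    (∀ c : F, A.1 ≠ c • (1 : Matrix (Fin 2) (Fin 2) F)) ∧ A.1.trace = τ

theorem conj_of_sq {A B : Matrix.SpecialLinearGroup (Fin 2) F} {C : Matrix (Fin 2) (Fin 2) F} {P Q : GL (Fin 2) F}
    (hP : A.1 * P.1 = P.1 * C) (hQ : B.1 * Q.1 = Q.1 * C) {d : F} (hd : P.1.det = d ^ 2 * Q.1.det) :
    ∃ M : Matrix.SpecialLinearGroup (Fin 2) F, A = M * B * M⁻¹ := by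
  have hP0 : P.1.det ≠ 0 := ((Matrix.isUnit_iff_isUnit_det _).1 P.isUnit).ne_zero
  have hQ0 : Q.1.det ≠ 0 := ((Matrix.isUnit_iff_isUnit_det _).1 Q.isUnit).ne_zero
  have hd0 : d ≠ 0 := by
    rintro rfl
    apply hP0
    rw [hd]; ring
  have hQu : IsUnit Q.1.det := isUnit_iff_ne_zero.2 hQ0
  let N : Matrix (Fin 2) (Fin 2) F := d⁻¹ • (P.1 * Q.1⁻¹)
  have hN : N.det = 1 := by
    rw [det_smul, Fintype.card_fin, det_mul, hd, Matrix.det_nonsing_inv, Ring.inverse_eq_inv']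
    field_simp
  have hAN : A.1 * N = N * B.1 := by
    have h1 : B.1 = Q.1 * C * Q.1⁻¹ := by
      rw [← hQ, mul_assoc, Matrix.mul_nonsing_inv _ hQu, mul_one]
    rw [h1, Matrix.mul_smul, Matrix.smul_mul, ← mul_assoc, hP]
    congr 1
    rw [mul_assoc P.1 Q.1⁻¹, ← mul_assoc Q.1⁻¹, ← mul_assoc Q.1⁻¹, Matrix.nonsing_inv_mul _ hQu, one_mul, mul_assoc]
  let M : Matrix.SpecialLinearGroup (Fin 2) F := ⟨N, hN⟩
  have hM : A * M = M * B := Subtype.ext hAN
  exact ⟨M, eq_mul_inv_iff_mul_eq.2 hM⟩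

theorem lift_conj_of_sq {x y : PSL2 F} {A B : Matrix.SpecialLinearGroup (Fin 2) F}
    (hx : (QuotientGroup.mk A : PSL2 F) = x) (hy : (QuotientGroup.mk B : PSL2 F) = y)
    (h : ∃ M : Matrix.SpecialLinearGroup (Fin 2) F, A = M * B * M⁻¹) : ∃ m : PSL2 F, x = m * y * m⁻¹ := by
  obtain ⟨M, rfl⟩ := h
  exact ⟨QuotientGroup.mk M, by rw [← hx, ← hy]; rfl⟩

theorem three_sq [Fintype F] {a b c : F} (ha : a ≠ 0) (hb : b ≠ 0) (hc : c ≠ 0) :
    (∃ d, a = d ^ 2 * b) ∨ (∃ d, b = d ^ 2 * c) ∨ (∃ d, c = d ^ 2 * a) := by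
  have key : ∀ {x y : F}, y ≠ 0 → IsSquare (x / y) → ∃ d, x = d ^ 2 * y := by
    intro x y hy ⟨d, hd⟩
    refine ⟨d, ?_⟩
    rw [pow_two, ← hd, div_mul_cancel₀ _ hy]
  by_cases h2 : ringChar F = 2
  · exact Or.inl (key hb (FiniteField.isSquare_of_char_two h2 _))
  · rcases FiniteField.pow_dichotomy h2 (div_ne_zero ha hb) with h | h
    · exact Or.inl (key hb ((FiniteField.isSquare_iff h2 (div_ne_zero ha hb)).2 h))
    rcases FiniteField.pow_dichotomy h2 (div_ne_zero hb hc) with h' | h'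
    · exact Or.inr (Or.inl (key hc ((FiniteField.isSquare_iff h2 (div_ne_zero hb hc)).2 h')))
    right; right
    apply key ha
    rw [FiniteField.isSquare_iff h2 (div_ne_zero hc ha)]
    have h3 : c / a = ((a / b) * (b / c))⁻¹ := by field_simp
    rw [h3, inv_pow, mul_pow, h, h']
    norm_num

/-- Of three elements with lifts of equal trace two are conjugate. -/
theorem conj_or [Fintype F] {τ : F} {x y z : PSL2 F} (hx : Lift τ x) (hy : Lift τ y) (hz : Lift τ z) :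
    (∃ m : PSL2 F, x = m * y * m⁻¹) ∨ (∃ m : PSL2 F, y = m * z * m⁻¹) ∨ (∃ m : PSL2 F, z = m * x * m⁻¹) := by
  obtain ⟨A, hA, hA1, hA2⟩ := hx
  obtain ⟨B, hB, hB1, hB2⟩ := hy
  obtain ⟨C, hC, hC1, hC2⟩ := hz
  obtain ⟨P, hP⟩ := LFourR.FieldPart.exists_conj_comp A hA1
  obtain ⟨Q, hQ⟩ := LFourR.FieldPart.exists_conj_comp B hB1
  obtain ⟨R, hR⟩ := LFourR.FieldPart.exists_conj_comp C hC1
  rw [hA2] at hP
  rw [hB2] at hQ
  rw [hC2] at hR
  have h0 : ∀ X : GL (Fin 2) F, X.1.det ≠ 0 := fun X => ((Matrix.isUnit_iff_isUnit_det _).1 X.isUnit).ne_zero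
  rcases three_sq (h0 P) (h0 Q) (h0 R) with ⟨d, hd⟩ | ⟨d, hd⟩ | ⟨d, hd⟩
  · exact Or.inl (lift_conj_of_sq hA hB (conj_of_sq hP hQ hd))
  · exact Or.inr (Or.inl (lift_conj_of_sq hB hC (conj_of_sq hQ hR hd)))
  · exact Or.inr (Or.inr (lift_conj_of_sq hC hA (conj_of_sq hR hP hd)))

/-- In characteristic 2 elements with lifts of equal trace are conjugate. -/
theorem conj_even [Fintype F] (h2 : ringChar F = 2) {τ : F} {x y : PSL2 F} (hx : Lift τ x) (hy : Lift τ y) :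
    ∃ m : PSL2 F, x = m * y * m⁻¹ := by
  obtain ⟨A, hA, hA1, hA2⟩ := hx
  obtain ⟨B, hB, hB1, hB2⟩ := hy
  obtain ⟨P, hP⟩ := LFourR.FieldPart.exists_conj_comp A hA1
  obtain ⟨Q, hQ⟩ := LFourR.FieldPart.exists_conj_comp B hB1
  rw [hA2] at hP
  rw [hB2] at hQ
  have h0 : ∀ X : GL (Fin 2) F, X.1.det ≠ 0 := fun X => ((Matrix.isUnit_iff_isUnit_det _).1 X.isUnit).ne_zero
  obtain ⟨d, hd⟩ := FiniteField.isSquare_of_char_two h2 (P.1.det / Q.1.det)
  exact lift_conj_of_sq hA hB (conj_of_sq hP hQ (d := d) (by rw [pow_two, ← hd, div_mul_cancel₀ _ (h0 Q)]))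

theorem exists_scalar_of_pow {A : Matrix.SpecialLinearGroup (Fin 2) F} {n : ℕ}
    (h : (QuotientGroup.mk A : PSL2 F) ^ n = 1) : ∃ c : F, A.1 ^ n = c • (1 : Matrix (Fin 2) (Fin 2) F) ∧ c ^ 2 = 1 := by
  rw [← QuotientGroup.mk_pow, QuotientGroup.eq_one_iff, PSL2Trace.mem_center_iff_exists] at h
  obtain ⟨c, hc⟩ := h
  replace hc : A.1 ^ n = c • (1 : Matrix (Fin 2) (Fin 2) F) := (LFourR.FieldPart.val_pow A n).symm.trans hc
  refine ⟨c, hc, ?_⟩
  have h1 : (A.1 ^ n).det = 1 := by rw [det_pow, A.2, one_pow]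
  rw [hc, det_smul, det_one, mul_one, Fintype.card_fin] at h1
  exact h1

theorem not_scalar {A : Matrix.SpecialLinearGroup (Fin 2) F} (h : (QuotientGroup.mk A : PSL2 F) ≠ 1) :
    ∀ c : F, A.1 ≠ c • (1 : Matrix (Fin 2) (Fin 2) F) := by
  intro c hc
  exact h ((QuotientGroup.eq_one_iff A).2 (PSL2Trace.mem_center_iff_exists.2 ⟨c, hc⟩))

theorem smul_eq_zero_of {A : Matrix.SpecialLinearGroup (Fin 2) F}
    (hA : ∀ c : F, A.1 ≠ c • (1 : Matrix (Fin 2) (Fin 2) F)) {a b : F}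
    (h : a • A.1 = b • (1 : Matrix (Fin 2) (Fin 2) F)) : a = 0 := by
  by_contra ha
  apply hA (a⁻¹ * b)
  rw [mul_smul, ← h, smul_smul, inv_mul_cancel₀ ha, one_smul]

theorem lift_two {x : PSL2 F} (hx : orderOf x = 2) : Lift 0 x := by
  obtain ⟨A, rfl⟩ := QuotientGroup.mk_surjective x
  have h1 : (QuotientGroup.mk A : PSL2 F) ^ 2 = 1 := by
    have := pow_orderOf_eq_one (QuotientGroup.mk A : PSL2 F)
    rwa [hx] at this
  have hne : (QuotientGroup.mk A : PSL2 F) ≠ 1 := by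
    intro h
    rw [h, orderOf_one] at hx
    norm_num at hx
  obtain ⟨c, hc, -⟩ := exists_scalar_of_pow h1
  have hns := not_scalar hne
  refine ⟨A, rfl, hns, ?_⟩
  rw [PSL2Trace.coe_sq] at hc
  apply smul_eq_zero_of hns (b := c + 1)
  rw [add_smul, one_smul, ← hc, sub_add_cancel]

theorem lift_three (h2 : (2 : F) = 0) {x : PSL2 F} (hx : orderOf x = 3) : Lift 1 x := by
  obtain ⟨A, rfl⟩ := QuotientGroup.mk_surjective x
  have h1 : (QuotientGroup.mk A : PSL2 F) ^ 3 = 1 := by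
    have := pow_orderOf_eq_one (QuotientGroup.mk A : PSL2 F)
    rwa [hx] at this
  have hne : (QuotientGroup.mk A : PSL2 F) ≠ 1 := by
    intro h
    rw [h, orderOf_one] at hx
    norm_num at hx
  obtain ⟨c, hc, -⟩ := exists_scalar_of_pow h1
  have hns := not_scalar hne
  refine ⟨A, rfl, hns, ?_⟩
  set t := A.1.trace with ht
  have h3 : A.1 ^ 3 = (t ^ 2 - 1) • A.1 - t • (1 : Matrix (Fin 2) (Fin 2) F) := by
    rw [pow_succ, PSL2Trace.coe_sq, sub_mul, Matrix.smul_mul, ← pow_two, PSL2Trace.coe_sq, ← ht, smul_sub, smul_smul,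
      one_mul, sub_smul, one_smul, ← pow_two]
    abel
  have h4 : t ^ 2 - 1 = 0 := by
    apply smul_eq_zero_of hns (b := c + t)
    rw [add_smul, ← hc, h3]
    abel
  have h5 : (t - 1) ^ 2 = 0 := by
    have : (t - 1) ^ 2 = (t ^ 2 - 1) + 2 * (1 - t) := by ring
    rw [this, h4, h2]; ring
  have h6 := pow_eq_zero_iff (two_ne_zero) |>.1 h5
  exact sub_eq_zero.1 h6

theorem lift_char {p : ℕ} [hp : Fact p.Prime] [CharP F p] (hp2 : p ≠ 2) {x : PSL2 F} (hx : orderOf x = p) :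
    Lift 2 x := by
  obtain ⟨A, rfl⟩ := QuotientGroup.mk_surjective x
  have h1 : (QuotientGroup.mk A : PSL2 F) ^ p = 1 := by
    have := pow_orderOf_eq_one (QuotientGroup.mk A : PSL2 F)
    rwa [hx] at this
  have hne : (QuotientGroup.mk A : PSL2 F) ≠ 1 := by
    intro h
    rw [h, orderOf_one] at hx
    exact hp.out.ne_one hx.symm
  obtain ⟨c, hc, hc2⟩ := exists_scalar_of_pow h1
  have hns := not_scalar hne
  have hodd : Odd p := hp.out.odd_of_ne_two hp2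
  have hcp : c ^ p = c := by
    obtain ⟨k, hk⟩ := hodd
    rw [hk, pow_succ, pow_mul, hc2, one_pow, one_mul]
  have hnil : IsNilpotent (A.1 - c • (1 : Matrix (Fin 2) (Fin 2) F)) := by
    refine ⟨p, ?_⟩
    have hcomm : Commute A.1 (c • (1 : Matrix (Fin 2) (Fin 2) F)) := by
      show A.1 * (c • 1) = (c • 1) * A.1
      rw [Matrix.mul_smul, Matrix.smul_mul, one_mul, mul_one]
    rw [sub_pow_char_of_commute p hcomm, hc, smul_pow, one_pow, hcp, sub_self]
  have htr : A.1.trace = 2 * c := by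
    have h3 := (Matrix.isNilpotent_trace_of_isNilpotent hnil).eq_zero
    rw [trace_sub, trace_smul, trace_one, Fintype.card_fin, smul_eq_mul] at h3
    have : A.1.trace = c * ((2 : ℕ) : F) := sub_eq_zero.1 h3
    rw [this]; push_cast; ring
  -- the other lift
  have hcc : c = 1 ∨ c = -1 := by
    have h3 : (c - 1) * (c + 1) = 0 := by linear_combination hc2
    rcases mul_eq_zero.1 h3 with h | h
    · exact Or.inl (sub_eq_zero.1 h)
    · exact Or.inr (eq_neg_of_add_eq_zero_left h)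
  rcases hcc with rfl | rfl
  · exact ⟨A, rfl, hns, by rw [htr]; ring⟩
  · refine ⟨-A, ?_, ?_, ?_⟩
    · have h5 : (-A) = (-1) * A := by rw [neg_mul, one_mul]
      rw [h5, QuotientGroup.mk_mul, PSL2Trace.mk_neg_one, one_mul]
    · intro c h
      apply hns (-c)
      have h6 : (-A).1 = -A.1 := SpecialLinearGroup.coe_neg A
      rw [h6] at h
      rw [neg_smul, ← h, neg_neg]
    · have h6 : (-A).1 = -A.1 := SpecialLinearGroup.coe_neg A
      rw [h6, trace_neg, htr]; ring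

end Cfsg.Agent.H514.OC.Psl2
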